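import Cfsg.Agent.GD2.Ring

/-! Rank two rings: idempotents, reflections, integrality. -/

set_option autoImplicit false
set_option linter.unusedSectionVars false

namespace Cfsg.Agent.GD2

variable {R : Type*} [Ring R] [Algebra ℚ R] [Nontrivial R] [Rk2 R]

theorem Idm.compl {e : R} (h : Idm e) : Idm (1 - e) :=
  ⟨by rw [sub_mul, one_mul, mul_sub, mul_one, h.mul, sub_self, sub_zero],
    fun e' => h.ne1 (sub_eq_zero.1 e').symm, fun e' => h.ne0 (by simpa using e')⟩

theorem Idm.corner {e x y : R} (h : Idm e) (hy : y * e = e * y) (h0 : x * y * e = 0) :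
    x * e = 0 ∨ y * e = 0 := by
  rw [hy]; exact Rk2.p1 h (by rw [mul_assoc, ← hy, ← mul_assoc, h0])

theorem Idm.mul_cases {e f : R} (h : Idm e) (hf : f * f = f) (hc : f * e = e * f) :
    f * e = 0 ∨ f * e = e := by
  rcases h.corner (x := f) (y := 1 - f) (by rw [sub_mul, mul_sub, hc]; simp)
    (by rw [mul_sub, mul_one, hf, sub_self, zero_mul]) with h1 | h1
  · exact Or.inl h1
  · rw [sub_mul, one_mul, sub_eq_zero] at h1; exact Or.inr h1.symm

theorem Idm.cases {e f : R} (h : Idm e) (hf : f * f = f) (hc : f * e = e * f) :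
    f = 0 ∨ f = e ∨ f = 1 - e ∨ f = 1 := by
  have h2 := h.compl.mul_cases hf (by rw [sub_mul, mul_sub, hc]; simp)
  have h3 : f = f * e + f * (1 - e) := by rw [← mul_add]; simp
  rcases h.mul_cases hf hc with h1 | h1 <;> rcases h2 with h2 | h2 <;> rw [h1, h2] at h3 <;>
    simp [h3]

theorem two_cancel {x : R} (h : 2 * x = 0) : x = 0 := by
  have : x = (1 / 2 : ℚ) • (2 * x) := by rw [two_mul, ← two_smul ℚ, smul_smul]; simp
  rw [this, h, smul_zero]

theorem nat_cancel {n : ℕ} (hn : n ≠ 0) {x : R} (h : (n : R) * x = 0) : x = 0 := by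
  have : x = (1 / n : ℚ) • ((n : R) * x) := by
    rw [← nsmul_eq_mul, ← Nat.cast_smul_eq_nsmul ℚ, smul_smul, one_div,
      inv_mul_cancel₀ (Nat.cast_ne_zero.2 hn), one_smul]
  rw [this, h, smul_zero]

theorem eq_zero_of_neg {x : R} (h : x = -x) : x = 0 :=
  two_cancel (by rw [two_mul]; nth_rw 1 [h]; simp)

theorem neg_one_ne : (-1 : R) ≠ 1 := fun h => one_ne_zero (eq_zero_of_neg h.symm)

/-- reflections -/
structure Rf (x : R) : Prop where
  sq : x * x = 1
  ne1 : x ≠ 1
  nen : x ≠ -1

theorem Rf.neg {x : R} (h : Rf x) : Rf (-x) :=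
  ⟨by simp [h.sq], fun e => h.nen (by simp [← e]), fun e => h.ne1 (neg_injective e)⟩

/-- the `+1` eigenprojection -/
noncomputable def ep (x : R) : R := (1 / 2 : ℚ) • (1 + x)

theorem two_ep (x : R) : 2 * ep x = 1 + x := by
  rw [ep, two_mul, ← two_smul ℚ, smul_smul]; simp

theorem ep_inj {x y : R} (h : ep x = ep y) : x = y := by
  have := two_ep x; rw [h, two_ep] at this; exact (add_left_cancel this).symm

theorem ep_one : ep (1 : R) = 1 := by
  rw [ep, ← two_smul ℚ, smul_smul]; simp

theorem ep_neg_one : ep (-1 : R) = 0 := by simp [ep]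

theorem ep_neg (x : R) : ep (-x) = 1 - ep x := by
  rw [eq_sub_iff_add_eq, ep, ep, ← smul_add, show 1 + -x + (1 + x) = (2 : ℚ) • (1 : R) by
    rw [two_smul]; abel, smul_smul]; simp

theorem ep_add (x : R) : ep x + ep (-x) = 1 := by rw [ep_neg]; simp

theorem ep_sub (x : R) : ep x - ep (-x) = x := by
  rw [ep, ep, ← smul_sub, show 1 + x - (1 + -x) = (2 : ℚ) • x by
    rw [two_smul]; abel, smul_smul]; simp

theorem ep_comm {x y : R} (h : y * x = x * y) : y * ep x = ep x * y := by
  simp [ep, mul_add, add_mul, h]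

theorem ep_anti {x y : R} (h : y * x = -(x * y)) : y * ep x = ep (-x) * y := by
  simp [ep, mul_add, add_mul, h]

theorem mul_ep {x : R} (h : x * x = 1) : x * ep x = ep x := by
  simp [ep, mul_add, h, add_comm]

theorem ep_mul {x : R} (h : x * x = 1) : ep x * ep x = ep x := by
  nth_rw 1 [ep]
  rw [smul_mul_assoc, add_mul, one_mul, mul_ep h, ← two_smul ℚ, smul_smul]; simp

theorem ep_orth {x : R} (h : x * x = 1) : ep x * ep (-x) = 0 := by
  rw [ep_neg, mul_sub, mul_one, ep_mul h, sub_self]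

theorem ep_orth' {x : R} (h : x * x = 1) : ep (-x) * ep x = 0 := by
  rw [ep_neg, sub_mul, one_mul, ep_mul h, sub_self]

theorem Rf.idm {x : R} (h : Rf x) : Idm (ep x) :=
  ⟨ep_mul h.sq, fun e => h.nen (ep_inj (e.trans ep_neg_one.symm)),
    fun e => h.ne1 (ep_inj (e.trans ep_one.symm))⟩

/-- commuting involutions -/
theorem Rf.cases {t r : R} (h : Rf t) (hr : r * r = 1) (hc : r * t = t * r) :
    r = 1 ∨ r = -1 ∨ r = t ∨ r = -t := by
  rcases h.idm.cases (ep_mul hr) (ep_comm (ep_comm hc.symm).symm) with e | e | e | e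
  · exact Or.inr (Or.inl (ep_inj (e.trans ep_neg_one.symm)))
  · exact Or.inr (Or.inr (Or.inl (ep_inj e)))
  · exact Or.inr (Or.inr (Or.inr (ep_inj (e.trans (ep_neg t).symm))))
  · exact Or.inl (ep_inj (e.trans ep_one.symm))

theorem Rf.eq_or {t r : R} (h : Rf t) (hr : Rf r) (hc : r * t = t * r) : r = t ∨ r = -t :=
  ((h.cases hr.sq hc).resolve_left hr.ne1).resolve_left hr.nen

theorem Rf.not_both {t r : R} (h : t * t = 1) (hr : r * r = 1 ∨ r * r = -1) (h1 : t * r = r * t)
    (h2 : t * r = -(r * t)) : False := by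
  have h3 : t * r = 0 := eq_zero_of_neg (h2.trans (by rw [h1]))
  have h4 : r * r = 0 := by
    have : r = t * (t * r) := by rw [← mul_assoc, h, one_mul]
    rw [h3, mul_zero] at this; simp [this]
  rcases hr with e | e <;> simp [h4] at e

/-- the commutant of two anticommuting reflections is a domain -/
theorem Rf.dom {t s x y : R} (ht : Rf t) (hs : s * s = 1) (ha : s * t = -(t * s))
    (xs : s * x = x * s) (yt : y * t = t * y) (ys : s * y = y * s)
    (h : x * y = 0) : x = 0 ∨ y = 0 := by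
  have key : ∀ w : R, s * w = w * s → w * ep t = 0 → w = 0 := fun w hw h0 => by
    have h1 : w * ep (-t) = 0 := by
      have : w * ep (-t) = s * (w * ep t) * s := by
        rw [← mul_assoc, hw, mul_assoc w, ep_anti ha, mul_assoc, mul_assoc, hs, mul_one]
      rw [this, h0]; simp
    rw [← mul_one w, ← ep_add t, mul_add, h0, h1, add_zero]
  exact (ht.idm.corner (ep_comm yt) (by rw [h, zero_mul])).imp (key x xs) (key y ys)

/-! integrality -/

theorem zi_pair {x y : R} (hx : IsIntegral ℤ x) (hy : IsIntegral ℤ y) (h : x * y = y * x) :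
    IsIntegral ℤ (x + y) ∧ IsIntegral ℤ (x * y) := by
  let S := Algebra.adjoin ℤ ({x, y} : Set R)
  have hc : IsMulCommutative S := Algebra.isMulCommutative_adjoin ℤ (by
    rintro a (rfl | rfl) b (rfl | rfl) <;> simp [h])
  letI : CommRing S := { (inferInstance : Ring S) with mul_comm := hc.is_comm.comm }
  let a : S := ⟨x, Algebra.subset_adjoin (by simp)⟩
  let b : S := ⟨y, Algebra.subset_adjoin (by simp)⟩
  have ha : IsIntegral ℤ a := (isIntegral_algHom_iff S.val Subtype.val_injective).1 hx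
  have hb : IsIntegral ℤ b := (isIntegral_algHom_iff S.val Subtype.val_injective).1 hy
  exact ⟨(isIntegral_algHom_iff S.val Subtype.val_injective).2 (ha.add hb),
    (isIntegral_algHom_iff S.val Subtype.val_injective).2 (ha.mul hb)⟩

theorem zi_pow {x : R} {n : ℕ} (hn : 0 < n) (h : x ^ n = 1) : IsIntegral ℤ x :=
  IsIntegral.of_pow hn (h ▸ isIntegral_one)

theorem zi_int (n : ℤ) : IsIntegral ℤ (n : R) := by
  have := isIntegral_algebraMap (R := ℤ) (A := R) (x := n)
  simpa using this

theorem zi_half {x : R} (hx : IsIntegral ℤ x) (k : ℤ) (h : 2 * x = 2 * k + 1) : False := by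
  have h1 : x = algebraMap ℚ R (k + 1 / 2) := by
    have : 2 * (x - algebraMap ℚ R (k + 1 / 2)) = 0 := by
      rw [mul_sub, h, show (2 : R) = algebraMap ℚ R 2 by simp [map_ofNat], ← map_mul,
        ← map_intCast (algebraMap ℚ R), ← map_mul, ← map_one (algebraMap ℚ R), ← map_add,
        ← map_sub, show (2 * k + 1 - 2 * (k + 1 / 2) : ℚ) = 0 by ring, map_zero]
    exact sub_eq_zero.1 (two_cancel this)
  rw [h1, isIntegral_algebraMap_iff (algebraMap ℚ R).injective] at hx
  obtain ⟨y, hy⟩ := IsIntegrallyClosed.isIntegral_iff.1 hx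
  have : (2 * y : ℚ) = 2 * k + 1 := by
    rw [show (y : ℚ) = algebraMap ℤ ℚ y from rfl, hy]; ring
  have h3 : 2 * y = 2 * k + 1 := by exact_mod_cast this
  omega

end Cfsg.Agent.GD2
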