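import Cfsg.Agent.GD2.Trace
import Cfsg.Agent.S0016
import Cfsg.Agent.K.InvLem
import Cfsg.Agent.FGS.SchurTransfer

/-! Odd `p`-subgroups of a finite subgroup of a rank two ring. -/

set_option autoImplicit false
set_option linter.unusedSectionVars false

namespace Cfsg.Agent.GD2

open Subgroup Cfsg.Agent.PLocal.Amb
open scoped commutatorElement

variable {R : Type*} [Ring R] [Algebra ℚ R] [Nontrivial R] [Rk2 R]
variable {G : Type*} [Group G] {p : ℕ}

/-- `1 + x + ⋯ + x^(p-1)` -/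
def nm (p : ℕ) (x : R) : R := ∑ j ∈ Finset.range p, x ^ j

/-- the projection onto the fixed points of `x` -/
noncomputable def en (p : ℕ) (x : R) : R := (p : ℚ)⁻¹ • nm p x

theorem mul_nm {x : R} (h : x ^ p = 1) : x * nm p x = nm p x := by
  have := mul_neg_geom_sum x p
  rw [h, sub_self, sub_mul, one_mul, sub_eq_zero] at this
  exact this.symm

theorem mul_en {x : R} (h : x ^ p = 1) : x * en p x = en p x := by
  rw [en, mul_smul_comm, mul_nm h]

theorem nm_eq (hp : p ≠ 0) (x : R) : nm p x = (p : ℚ) • en p x := by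
  rw [en, smul_smul, mul_inv_cancel₀ (Nat.cast_ne_zero.2 hp), one_smul]

theorem en_abs (hp : p ≠ 0) {x y : R} (h : x * y = y) : en p x * y = y := by
  have : ∀ j, x ^ j * y = y := fun j => by
    induction j with
    | zero => simp
    | succ j ih => rw [pow_succ, mul_assoc, h, ih]
  rw [en, nm, smul_mul_assoc, Finset.sum_mul]
  simp only [this, Finset.sum_const, Finset.card_range]
  rw [← Nat.cast_smul_eq_nsmul ℚ, smul_smul, inv_mul_cancel₀ (Nat.cast_ne_zero.2 hp), one_smul]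

theorem en_idem (hp : p ≠ 0) {x : R} (h : x ^ p = 1) : en p x * en p x = en p x :=
  en_abs hp (mul_en h)

theorem en_conj {x y g : R} (h : g * x = y * g) : g * en p x = en p y * g := by
  have : ∀ j, g * x ^ j = y ^ j * g := fun j => (SemiconjBy.pow_right h j).eq
  simp only [en, nm, mul_smul_comm, smul_mul_assoc, Finset.mul_sum, Finset.sum_mul, this]

theorem en_mem (ρ : G →* R) (v : G) : en p (ρ v) ∈ Sp ρ :=
  Subalgebra.smul_mem _ (Subalgebra.sum_mem _ fun _ _ => pow_mem (mem_Sp ρ v) _) _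

theorem free (hp : p ≠ 0) {x y e : R} (hc : Commute x y)
    (h1 : ∀ j, 0 < j → j < p → nm p (x ^ j) * e = 0) (h2 : ∀ m, nm p (x ^ m * y) * e = 0) :
    e = 0 := by
  have a : ∑ m ∈ Finset.range p, nm p (x ^ m * y) =
      ∑ j ∈ Finset.range p, y ^ j * nm p (x ^ j) := by
    simp only [nm, Finset.mul_sum]
    rw [Finset.sum_comm]
    refine Finset.sum_congr rfl fun j _ => Finset.sum_congr rfl fun m _ => ?_
    rw [(hc.pow_left m).mul_pow, ← pow_mul, ← pow_mul, mul_comm m, (hc.pow_pow _ _).eq]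
  have b := congrArg (· * e) a
  simp only [Finset.sum_mul, h2, Finset.sum_const_zero, mul_assoc] at b
  rw [Finset.sum_eq_single 0 (fun j hj h0 => by
    rw [h1 j (Nat.pos_of_ne_zero h0) (Finset.mem_range.1 hj), mul_zero])
    (fun h => absurd (Finset.mem_range.2 (Nat.pos_of_ne_zero hp)) h)] at b
  refine nat_cancel hp ?_
  simpa [nm] using b.symm

theorem mem_of_free [Fact p.Prime] (σ : G →* R) {e : R} (he : e ≠ 0) {c x : G}
    (hc : orderOf c = p) (hx : x ^ p = 1) (hcx : Commute c x)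
    (h : ∀ v ∈ closure {c, x}, v ≠ 1 → v ^ p = 1 → nm p (σ v) * e = 0) : x ∈ zpowers c := by
  by_contra hn
  have cp : c ^ p = 1 := hc ▸ pow_orderOf_eq_one c
  have mc : c ∈ closure {c, x} := subset_closure (by simp)
  refine he (free (Fact.out : p.Prime).ne_zero (hcx.map σ) (fun j h0 hj => ?_) fun m => ?_)
  · rw [← map_pow]
    exact h _ (pow_mem mc j) (pow_ne_one_of_lt_orderOf h0.ne' (hc ▸ hj))
      (by rw [← pow_mul, mul_comm, pow_mul, cp, one_pow])
  · rw [← map_pow, ← map_mul]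
    refine h _ (mul_mem (pow_mem mc m) (subset_closure (by simp))) (fun h1 => hn ?_) ?_
    · rw [eq_inv_of_mul_eq_one_right h1]; exact inv_mem (pow_mem (mem_zpowers c) m)
    · rw [(hcx.pow_left m).mul_pow, hx, ← pow_mul, mul_comm m, pow_mul, cp, one_pow, mul_one]

theorem cyc_or [Finite G] [Fact p.Prime] (hP : IsPGroup p G) (σ : G →* R) {e : R} (he : e ≠ 0)
    (h : ∀ v, v ≠ 1 → v ^ p = 1 → nm p (σ v) * e = 0) :
    IsCyclic G ∨ (p = 2 ∧ ∃ n : ℕ, Nonempty (G ≃* QuaternionGroup (2 ^ n))) := by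
  refine S0016.result p hP ?_
  by_cases h1 : Nontrivial G
  · have := hP.center_nontrivial
    obtain ⟨c, hc⟩ := exists_prime_orderOf_dvd_card' (G := center G) p
      ((hP.to_subgroup _).card_eq_or_dvd.resolve_left Finite.one_lt_card.ne')
    rw [← orderOf_coe] at hc
    have key : ∀ H : Subgroup G, Nat.card H = p → H = zpowers (c : G) := fun H hH => by
      refine eq_of_le_of_card_ge (fun x hx => ?_) (by rw [Nat.card_zpowers, hc, hH])
      refine mem_of_free σ he hc ?_ (mem_center_iff.1 c.2 x).symm fun v _ => h v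
      rw [← hH]; exact congrArg Subtype.val (pow_card_eq_one' (x := (⟨x, hx⟩ : H)))
    exact fun H K hH hK => (key H hH).trans (key K hK).symm
  · rw [not_nontrivial_iff_subsingleton] at h1
    exact fun H K _ _ => Subsingleton.elim _ _

/-- the elements commuting with `e` -/
def St (ρ : G →* R) (e : R) : Subgroup G where
  carrier := {g | ρ g * e = e * ρ g}
  one_mem' := by simp
  mul_mem' := fun {a b} ha hb => by
    change ρ (a * b) * e = e * ρ (a * b)
    rw [map_mul, mul_assoc, show ρ b * e = _ from hb, ← mul_assoc, show ρ a * e = _ from ha,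
      mul_assoc]
  inv_mem' := fun {a} ha => by
    change ρ a⁻¹ * e = e * ρ a⁻¹
    calc ρ a⁻¹ * e = ρ a⁻¹ * (e * ρ a) * ρ a⁻¹ := by
          rw [mul_assoc, mul_assoc, ← map_mul, mul_inv_cancel, map_one, mul_one]
      _ = _ := by rw [← show ρ a * e = _ from ha, ← mul_assoc, ← map_mul, inv_mul_cancel, map_one,
          one_mul]

theorem mem_St {ρ : G →* R} {e : R} {g : G} : g ∈ St ρ e ↔ ρ g * e = e * ρ g := Iff.rfl

theorem exists_sgn (H : Subgroup G) (h : ∀ a b, a ∉ H → b ∉ H → a * b ∈ H) :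
    ∃ χ : G →* ℤˣ, ∀ g, χ g = 1 ↔ g ∈ H := by
  classical
  refine ⟨MonoidHom.mk' (fun g => if g ∈ H then 1 else -1) fun a b => ?_, fun g => ?_⟩
  · by_cases ha : a ∈ H <;> by_cases hb : b ∈ H
    · simp [ha, hb, mul_mem ha hb]
    · simp [ha, hb, H.mul_mem_cancel_left ha]
    · simp [ha, hb, H.mul_mem_cancel_right hb]
    · simp [ha, hb, h a b ha hb]
  · by_cases hg : g ∈ H <;> simp [hg]

theorem mem_of_perf (hp : commutator G = ⊤) (H : Subgroup G)
    (h : ∀ a b, a ∉ H → b ∉ H → a * b ∈ H) (g : G) : g ∈ H := by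
  obtain ⟨χ, hχ⟩ := exists_sgn H h
  exact (hχ g).1 (Abelianization.commutator_subset_ker χ (hp ▸ mem_top g))

theorem mem_of_odd (H : Subgroup G) (h : ∀ a b, a ∉ H → b ∉ H → a * b ∈ H) {g : G} {n : ℕ}
    (hn : Odd n) (hg : g ^ n = 1) : g ∈ H := by
  obtain ⟨χ, hχ⟩ := exists_sgn H h
  refine (hχ g).1 ((Int.units_eq_one_or (χ g)).resolve_right fun e => ?_)
  have := congrArg χ hg
  rw [map_pow, e, hn.neg_one_pow, map_one] at this
  exact absurd this (by decide)

theorem St_two {ρ : G →* R} {e : R} (he : Idm e)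
    (h : ∀ g, ∃ f, ρ g * e = f * ρ g ∧ f * e = e * f) (a b : G) (ha : a ∉ St ρ e)
    (hb : b ∉ St ρ e) : a * b ∈ St ρ e := by
  have key : ∀ g ∉ St ρ e, ρ g * e = (1 - e) * ρ g := fun g hg => by
    obtain ⟨f, h1, h2⟩ := h g
    have inv : ρ g * ρ g⁻¹ = 1 := by rw [← map_mul, mul_inv_cancel, map_one]
    have inv' : ρ g⁻¹ * ρ g = 1 := by rw [← map_mul, inv_mul_cancel, map_one]
    have hf : f = ρ g * e * ρ g⁻¹ := by rw [h1, mul_assoc, inv, mul_one]
    have he' : e = ρ g⁻¹ * f * ρ g := by rw [mul_assoc, ← h1, ← mul_assoc, inv', one_mul]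
    rcases he.cases (f := f) (by
      rw [hf, mul_assoc, ← mul_assoc (ρ g⁻¹), ← mul_assoc (ρ g⁻¹), inv', one_mul, mul_assoc,
        ← mul_assoc e, he.mul, mul_assoc]) h2 with e1 | e1 | e1 | e1
    · exact absurd (by rw [he', e1]; simp) he.ne0
    · exact absurd (e1 ▸ h1) hg
    · exact e1 ▸ h1
    · exact absurd (by rw [he', e1, mul_one, inv']) he.ne1
  rw [mem_St, map_mul, mul_assoc, key b hb, ← mul_assoc, mul_sub, mul_one, key a ha, sub_mul 1,
    one_mul, sub_sub_cancel, mul_assoc]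

/-- the action on the corner of `e` -/
def cor (ρ : G →* R) {e : R} (he : Idm e) (hc : ∀ g, ρ g * e = e * ρ g) : G →* R where
  toFun := fun g => ρ g * e + (1 - e)
  map_one' := by simp
  map_mul' := fun a b => by
    have h1 : e * (1 - e) = 0 := by rw [mul_sub, mul_one, he.mul, sub_self]
    have h2 : (1 - e) * e = 0 := by rw [sub_mul, one_mul, he.mul, sub_self]
    rw [add_mul, mul_add, mul_add, he.compl.mul, mul_assoc _ e (1 - e), h1, hc b,
      ← mul_assoc (1 - e), h2, ← mul_assoc, mul_assoc _ e e, he.mul, map_mul, mul_assoc,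
      hc b, mul_assoc]
    simp

theorem cor_mul {ρ : G →* R} {e : R} (he : Idm e) (hc : ∀ g, ρ g * e = e * ρ g) (g : G) :
    cor ρ he hc g * e = ρ g * e := by
  change (ρ g * e + (1 - e)) * e = _
  rw [add_mul, mul_assoc, he.mul, sub_mul, one_mul, he.mul, sub_self, add_zero]

theorem mul_cor {ρ : G →* R} {e : R} (he : Idm e) (hc : ∀ g, ρ g * e = e * ρ g) (g : G) :
    e * cor ρ he hc g = ρ g * e := by
  change e * (ρ g * e + (1 - e)) = _
  rw [mul_add, ← mul_assoc, ← hc, mul_assoc, he.mul, mul_sub, mul_one, he.mul, sub_self, add_zero]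

theorem cor_eq {ρ : G →* R} {e : R} (he : Idm e) (hc : ∀ g, ρ g * e = e * ρ g) {a b : G} :
    (cor ρ he hc).toHomUnits.rangeRestrict a = (cor ρ he hc).toHomUnits.rangeRestrict b ↔
      ρ a * e = ρ b * e := by
  rw [Subtype.ext_iff, Units.ext_iff]
  exact add_left_inj _

/-- a `p`-group acts on a corner as a cyclic or generalised quaternion group -/
theorem cor_cyc [Finite G] [Fact p.Prime] (hP : IsPGroup p G) (ρ : G →* R) {e : R}
    (he : Idm e) (hc : ∀ g, ρ g * e = e * ρ g) : IsCyclic (cor ρ he hc).toHomUnits.range ∨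
      (p = 2 ∧ ∃ n : ℕ, Nonempty ((cor ρ he hc).toHomUnits.range ≃* QuaternionGroup (2 ^ n))) := by
  have hs := (cor ρ he hc).toHomUnits.rangeRestrict_surjective
  have : Finite (cor ρ he hc).toHomUnits.range := Finite.of_surjective _ hs
  refine cyc_or (hP.of_surjective _ hs) ((Units.coeHom R).comp (Subgroup.subtype _)) he.ne0 ?_
  rintro ⟨_, g, rfl⟩ h1 h2
  have h3 : cor ρ he hc g ^ p = 1 := congrArg (fun w => ((w.1 : Rˣ) : R)) h2
  change nm p (cor ρ he hc g) * e = 0
  rcases he.mul_cases (en_idem (Fact.out : p.Prime).ne_zero h3)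
    (en_conj ((mul_cor he hc g).trans (cor_mul he hc g).symm)).symm with h4 | h4
  · rw [nm_eq (Fact.out : p.Prime).ne_zero, smul_mul_assoc, h4, smul_zero]
  · refine absurd (Subtype.ext (Units.ext ?_)) h1
    change ρ g * e + (1 - e) = 1
    have h5 : cor ρ he hc g * (en p (cor ρ he hc g) * e) = en p (cor ρ he hc g) * e := by
      rw [← mul_assoc, mul_en h3]
    rw [h4] at h5
    rw [← cor_mul he hc, h5]; simp

theorem comm_mod [Finite G] [Fact p.Prime] (hp : p ≠ 2) (hP : IsPGroup p G) (ρ : G →* R) {e : R}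
    (he : Idm e) (hc : ∀ g, ρ g * e = e * ρ g) (a b : G) : ρ ⁅a, b⁆ * e = e := by
  have := (cor_cyc hP ρ he hc).resolve_right fun h => hp h.1
  let _ := IsCyclic.commGroup (α := (cor ρ he hc).toHomUnits.range)
  have h5 := (cor_eq he hc (a := ⁅a, b⁆) (b := 1)).1 (by
    rw [map_commutatorElement, map_one, commutatorElement_eq_one_iff_mul_comm, mul_comm])
  rwa [map_one, one_mul] at h5

theorem comm_St [Finite G] [Fact p.Prime] (hp : p ≠ 2) {ρ : G →* R} (hρ : Function.Injective ρ)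
    {H : Subgroup G} (hP : IsPGroup p H) {e : R} (he : Idm e) (hc : H ≤ St ρ e) {a b : G}
    (ha : a ∈ H) (hb : b ∈ H) : a * b = b * a := by
  have h1 := comm_mod hp hP (ρ.comp H.subtype) he (fun g => hc g.2) ⟨a, ha⟩ ⟨b, hb⟩
  have h2 := comm_mod hp hP (ρ.comp H.subtype) he.compl (fun g => by
    rw [mul_sub, sub_mul, mul_one, one_mul]; exact congrArg _ (hc g.2)) ⟨a, ha⟩ ⟨b, hb⟩
  rw [← commutatorElement_eq_one_iff_mul_comm]
  refine hρ ?_
  have h3 := congrArg₂ (· + ·) h1 h2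
  simp only [← mul_add, add_sub_cancel, mul_one] at h3
  rw [map_one, ← h3]; rfl

theorem exists_en [Finite G] [Fact p.Prime] (hp : p ≠ 2) {ρ : G →* R} (hρ : Function.Injective ρ)
    {P : Subgroup G} (hP : IsPGroup p P) (hc : ¬ IsCyclic P) :
    ∃ v ∈ P, v ^ p = 1 ∧ Idm (en p (ρ v)) := by
  by_contra h
  push Not at h
  refine hc ((cyc_or hP (ρ.comp P.subtype) one_ne_zero fun v h1 h2 => ?_).resolve_right
    fun h => hp h.1)
  have h3 : (v : G) ^ p = 1 := congrArg Subtype.val h2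
  have h4 : ρ v ^ p = 1 := by rw [← map_pow, h3, map_one]
  have h5 : en p (ρ v) = 0 := by
    by_contra h0
    refine h v v.2 h3 ⟨en_idem (Fact.out : p.Prime).ne_zero h4, h0, fun h6 => h1 ?_⟩
    have := mul_en h4
    rw [h6, mul_one, ← map_one ρ] at this
    exact Subtype.ext (hρ this)
  change nm p (ρ v) * 1 = 0
  rw [nm_eq (Fact.out : p.Prime).ne_zero, h5, smul_zero, zero_mul]

/-- elements normalising an abelian subgroup containing `v` permute `e, 1 - e` -/
theorem St_two' {ρ : G →* R} {H L : Subgroup G} (hL : L ≤ 𝐍[H])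
    (hH : ∀ a ∈ H, ∀ b ∈ H, a * b = b * a) {v : G} (hv : v ∈ H) (he : Idm (en p (ρ v))) (a b : L)
    (ha : a ∉ St (ρ.comp L.subtype) (en p (ρ v))) (hb : b ∉ St (ρ.comp L.subtype) (en p (ρ v))) :
    a * b ∈ St (ρ.comp L.subtype) (en p (ρ v)) := by
  refine St_two he (fun (g : L) => ⟨en p (ρ ((g : G) * v * (g : G)⁻¹)), en_conj ?_,
    (en_conj (en_conj ?_).symm).symm⟩)
    a b ha hb
  · change ρ g * _ = _ * ρ g
    rw [← map_mul, ← map_mul, inv_mul_cancel_right]
  · rw [← map_mul, ← map_mul, hH _ hv _ (conj_mem_of_mem_normalizer (hL g.2) hv)]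

theorem comm_odd [Finite G] [Fact p.Prime] (hp : p ≠ 2) {ρ : G →* R} (hρ : Function.Injective ρ)
    {P : Subgroup G} (hP : IsPGroup p P) {a b : G} (ha : a ∈ P) (hb : b ∈ P) : a * b = b * a := by
  by_cases hc : IsCyclic P
  · letI := IsCyclic.commGroup (α := P)
    exact congrArg Subtype.val (mul_comm (⟨a, ha⟩ : P) ⟨b, hb⟩)
  obtain ⟨v, hv, hvp, he⟩ := exists_en hp hρ hP hc
  have hH : IsPGroup p ↥(P ⊓ St ρ (en p (ρ v))) := hP.to_le inf_le_left
  have hcm := fun a ha b hb => comm_St hp hρ hH he inf_le_right (a := a) (b := b) ha hb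
  have : P ⊓ St ρ (en p (ρ v)) = P := by
    refine eq_of_inf_normalizer_le hP inf_le_left fun g hg => ⟨hg.1, ?_⟩
    obtain ⟨k, hk⟩ := isPGroup_iff.1 hP g hg.1
    exact mem_of_odd _ (St_two' le_rfl hcm ⟨hv, en_conj rfl⟩ he) (g := ⟨g, hg.2⟩)
      (((Fact.out : p.Prime).odd_of_ne_two hp).pow) (Subtype.ext hk)
  exact hcm a (this.symm ▸ ha) b (this.symm ▸ hb)

theorem center_cyc (hp : commutator G = ⊤) (N : Subgroup G) [N.Normal] [IsCyclic N] :
    N ≤ center G := by
  let _ := (IsCyclic.mulAutMulEquiv N).toMonoidHom.commGroupOfInjective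
    (IsCyclic.mulAutMulEquiv N).injective
  intro x hx
  refine mem_center_iff.2 fun g => ?_
  have h1 := Abelianization.commutator_subset_ker (MulAut.conjNormal : G →* MulAut N)
    (hp ▸ mem_top g)
  have h2 := congrArg Subtype.val (DFunLike.congr_fun (MonoidHom.mem_ker.1 h1) ⟨x, hx⟩)
  exact mul_inv_eq_iff_eq_mul.1 h2

/-- a central `p`-element of a perfect group lies in the derived group of a Sylow subgroup -/
theorem mem_comm_syl [Finite G] [Fact p.Prime] (hp : commutator G = ⊤) (S : Sylow p G) {x : G}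
    (hx : x ∈ center G) {k : ℕ} (hk : x ^ p ^ k = 1) : x ∈ ⁅(S : Subgroup G), (S : Subgroup G)⁆ := by
  have h1 := FGS.pow_index_mem_commutator_of_mem_center (S : Subgroup G) hx (hp ▸ mem_top x)
  have h2 : (S : Subgroup G).index.Coprime (orderOf x) :=
    (Nat.Coprime.pow_right k ((Nat.Prime.coprime_iff_not_dvd Fact.out).2
      S.not_dvd_index).symm).coprime_dvd_right (orderOf_dvd_of_pow_eq_one hk)
  obtain ⟨m, hm⟩ := exists_pow_eq_self_of_coprime h2
  exact hm ▸ pow_mem h1 m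

theorem oddCore_bot [Finite G] {ρ : G →* R} (hρ : Function.Injective ρ) (hp : commutator G = ⊤)
    (hn : ¬ Red ρ) : oddCore G = ⊥ := by
  refine K.oddCore_eq_bot_of_pCore fun p hpp h2 => ?_
  have := Fact.mk hpp
  have hP := Grp.pCore_isPGroup p G
  by_cases hc : IsCyclic (pCore p G)
  · refine (eq_bot_iff_forall _).2 fun x hx => ?_
    obtain ⟨S⟩ := (inferInstance : Nonempty (Sylow p G))
    obtain ⟨k, hk⟩ := isPGroup_iff.1 hP x hx
    have h1 := mem_comm_syl hp S (center_cyc hp _ hx) hk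
    rwa [commutator_eq_bot_iff_le_centralizer.2 fun a ha => mem_centralizer_iff.2 fun b hb =>
      comm_odd h2 hρ S.2 hb ha] at h1
  obtain ⟨v, hv, hvp, he⟩ := exists_en h2 hρ hP hc
  refine absurd ⟨_, en_mem ρ v, he, fun g => ?_⟩ hn
  refine mem_of_perf hp (St ρ _) (fun a b ha hb => ?_) g
  exact St_two' (L := ⊤) (by rw [normalizer_eq_top]) (fun a ha b hb => comm_odd h2 hρ hP ha hb)
    hv he ⟨a, trivial⟩ ⟨b, trivial⟩ ha hb

end Cfsg.Agent.GD2
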