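import Cfsg.Agent.S4294

/-! Finite subgroups of `GL₂(D)`: the ring `M₂(D)` has "rank two". -/

set_option autoImplicit false

namespace Cfsg.Agent.GD2

open Matrix

/-- `SL(2,5)`. -/
abbrev S25 := Matrix.SpecialLinearGroup (Fin 2) (ZMod 5)

/-- A nontrivial idempotent. -/
structure Idm {R : Type*} [Ring R] (e : R) : Prop where
  mul : e * e = e
  ne0 : e ≠ 0
  ne1 : e ≠ 1

/-- The properties of `M₂(D)` that are used. -/
class Rk2 (R : Type*) [Ring R] : Prop where
  p1 : ∀ {e a b : R}, Idm e → a * e * b = 0 → a * e = 0 ∨ e * b = 0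
  perf : ∀ (H : Subgroup Rˣ) [Finite H], commutator H = ⊤ → ∀ {e : R}, Idm e →
    (∀ h : H, (h : Rˣ) * e = e * (h : Rˣ)) → (∀ h : H, (h : Rˣ) * e = e) ∨
      ∃ φ : H →* S25, Function.Surjective φ ∧ ∀ h : H, φ h = 1 ↔ (h : Rˣ) * e = e

section Mat

variable {D : Type*} [DivisionRing D]

theorem col {e : Matrix (Fin 2) (Fin 2) D} (h1 : e ≠ 1) {w c : Fin 2 → D} (hw : e *ᵥ w = w)
    (hc : e *ᵥ c = c) (w0 : w ≠ 0) : ∃ l, c = fun i => w i * l := by
  have a0 := congrFun hw 0
  have a1 := congrFun hw 1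
  have b0 := congrFun hc 0
  have b1 := congrFun hc 1
  simp only [mulVec, dotProduct, Fin.sum_univ_two] at a0 a1 b0 b1
  by_contra hn
  push Not at hn
  apply h1
  by_cases h : w 0 = 0
  · have h' : w 1 ≠ 0 := fun h' => w0 (by ext i; fin_cases i <;> simp [h, h'])
    have hc0 : c 0 ≠ 0 := fun h'' => hn ((w 1)⁻¹ * c 1) (by
      ext i; fin_cases i
      · simp [h, h'']
      · simp [← mul_assoc, h'])
    rw [h, mul_zero, zero_add] at a0 a1
    have e01 : e 0 1 = 0 := (mul_eq_zero.1 a0).resolve_right h'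
    have e11 : e 1 1 = 1 := mul_right_cancel₀ h' (by rw [a1, one_mul])
    rw [e01, zero_mul, add_zero] at b0
    rw [e11, one_mul, add_eq_right] at b1
    have e00 : e 0 0 = 1 := mul_right_cancel₀ hc0 (by rw [b0, one_mul])
    have e10 : e 1 0 = 0 := (mul_eq_zero.1 b1).resolve_right hc0
    ext i j; fin_cases i <;> fin_cases j <;> simp [e00, e01, e10, e11]
  · set l := (w 0)⁻¹ * c 0 with hl
    have c0 : c 0 = w 0 * l := by rw [hl, ← mul_assoc, mul_inv_cancel₀ h, one_mul]
    have d : c 1 - w 1 * l ≠ 0 := fun h'' => hn l (by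
      ext i; fin_cases i
      · exact c0
      · exact sub_eq_zero.1 h'')
    have e01 : e 0 1 = 0 := by
      refine (mul_eq_zero.1 ?_).resolve_right d
      have : e 0 1 * (c 1 - w 1 * l) = (e 0 0 * c 0 + e 0 1 * c 1) -
        (e 0 0 * w 0 + e 0 1 * w 1) * l := by rw [c0]; noncomm_ring
      rw [this, a0, b0, c0, sub_self]
    have e11 : e 1 1 = 1 := by
      refine mul_right_cancel₀ d ?_
      have : e 1 1 * (c 1 - w 1 * l) = (e 1 0 * c 0 + e 1 1 * c 1) -
        (e 1 0 * w 0 + e 1 1 * w 1) * l := by rw [c0]; noncomm_ring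
      rw [this, a1, b1, one_mul]
    rw [e01, zero_mul, add_zero] at a0
    rw [e11, one_mul, add_eq_right] at a1
    have e00 : e 0 0 = 1 := mul_right_cancel₀ h (by rw [a0, one_mul])
    have e10 : e 1 0 = 0 := (mul_eq_zero.1 a1).resolve_right h
    ext i j; fin_cases i <;> fin_cases j <;> simp [e00, e01, e10, e11]

theorem mulVec_sc (a : Matrix (Fin 2) (Fin 2) D) (w : Fin 2 → D) (l : D) :
    a *ᵥ (fun i => w i * l) = fun i => (a *ᵥ w) i * l := by
  ext i
  simp only [mulVec, dotProduct, Fin.sum_univ_two, add_mul, mul_assoc]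

theorem exists_colv {b : Matrix (Fin 2) (Fin 2) D} (hb : b ≠ 0) :
    ∃ j, (fun i => b i j) ≠ 0 := by
  by_contra h
  push Not at h
  exact hb (by ext i j; exact congrFun (h j) i)

theorem mulVec_colv (a b : Matrix (Fin 2) (Fin 2) D) (j : Fin 2) :
    a *ᵥ (fun i => b i j) = fun i => (a * b) i j := by
  ext i; simp [mulVec, dotProduct, mul_apply]

theorem mul_eq_of_col {e : Matrix (Fin 2) (Fin 2) D} (he : Idm e) {w : Fin 2 → D}
    (hw : e *ᵥ w = w) (w0 : w ≠ 0) {a b : Matrix (Fin 2) (Fin 2) D} (h : a *ᵥ w = b *ᵥ w) :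
    a * e = b * e := by
  ext i j
  obtain ⟨l, hl⟩ := col he.ne1 hw (c := fun i => e i j) (by rw [mulVec_colv, he.mul]) w0
  have h1 := congrFun (mulVec_colv a e j) i
  have h2 := congrFun (mulVec_colv b e j) i
  rw [hl, mulVec_sc] at h1 h2
  simp only at h1 h2
  rw [← h1, ← h2, h]

instance rk2_matrix : Rk2 (Matrix (Fin 2) (Fin 2) D) where
  p1 := fun {e a b} he h => by
    by_cases hb : e * b = 0
    · exact Or.inr hb
    obtain ⟨j, hj⟩ := exists_colv hb
    left
    rw [← zero_mul e]
    refine mul_eq_of_col he (w := fun i => (e * b) i j) ?_ hj ?_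
    · rw [mulVec_colv, ← mul_assoc, he.mul]
    · rw [mulVec_colv, mulVec_colv, ← mul_assoc, h, zero_mul]
  perf := fun H _ hp e he hc => by
    obtain ⟨j, w0⟩ := exists_colv he.ne0
    set w : Fin 2 → D := fun i => e i j with hwd
    have hw : e *ᵥ w = w := by rw [hwd, mulVec_colv, he.mul]
    have ex : ∀ h : H, ∃ l, ((h : (Matrix (Fin 2) (Fin 2) D)ˣ) : Matrix (Fin 2) (Fin 2) D) *ᵥ w =
        fun i => w i * l := fun h => col he.ne1 hw (by
      rw [mulVec_mulVec, ← hc, ← mulVec_mulVec, hw]) w0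
    choose l hl using ex
    have can : ∀ a b : D, (fun i => w i * a) = (fun i => w i * b) → a = b := fun a b h => by
      obtain ⟨i, hi⟩ := Function.ne_iff.1 w0
      exact mul_left_cancel₀ hi (congrFun h i)
    let π : H →* D :=
      { toFun := l
        map_one' := can _ _ (by rw [← hl]; simp)
        map_mul' := fun a b => can _ _ (by
          rw [← hl, Subgroup.coe_mul, Units.val_mul, ← mulVec_mulVec, hl, mulVec_sc, hl]
          simp only [mul_assoc]) }
    have key : ∀ h : H, π.toHomUnits h = 1 ↔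
        ((h : (Matrix (Fin 2) (Fin 2) D)ˣ) : Matrix (Fin 2) (Fin 2) D) * e = e := fun h => by
      rw [Units.ext_iff]
      change l h = 1 ↔ _
      constructor
      · intro h1
        have := mul_eq_of_col he hw w0 (a := (h : (Matrix (Fin 2) (Fin 2) D)ˣ)) (b := 1)
          (by rw [hl, h1]; simp)
        rwa [one_mul] at this
      · intro h1
        refine can _ _ ?_
        rw [← hl, hwd, mulVec_colv, h1]; simp
    by_cases hs : Group.IsSolvable π.toHomUnits.range
    · left
      intro h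
      rw [← key]
      have h2 : commutator π.toHomUnits.range = ⊤ := by
        have := Subgroup.map_commutator (⊤ : Subgroup H) ⊤ π.toHomUnits.rangeRestrict
        rw [← commutator_def, hp, ← MonoidHom.range_eq_map,
          MonoidHom.range_eq_top.2 π.toHomUnits.rangeRestrict_surjective] at this
        rw [commutator_def, ← this]
      by_contra hne
      have : Nontrivial π.toHomUnits.range :=
        ⟨⟨⟨_, h, rfl⟩, 1, fun e => hne (congrArg Subtype.val e)⟩⟩
      exact (IsSolvable.commutator_lt_top_of_nontrivial _).ne h2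
    · right
      have : Finite π.toHomUnits.range := Finite.of_surjective _ π.toHomUnits.rangeRestrict_surjective
      obtain ⟨f⟩ := S4294.result _ hs
      refine ⟨f.toMonoidHom.comp π.toHomUnits.rangeRestrict,
        f.surjective.comp π.toHomUnits.rangeRestrict_surjective, fun h => ?_⟩
      rw [← key]
      simp only [MulEquiv.toMonoidHom_eq_coe, MonoidHom.comp_apply, MonoidHom.coe_coe,
        EmbeddingLike.map_eq_one_iff]
      exact Subtype.ext_iff

end Mat

end Cfsg.Agent.GD2
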