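import Cfsg.Agent.GD2.Basic

/-! The normalised trace on the span of an irreducible finite subgroup. -/

set_option autoImplicit false
set_option linter.unusedSectionVars false

namespace Cfsg.Agent.GD2

open Module

variable {R : Type*} [Ring R] [Algebra ℚ R] [Nontrivial R] [Rk2 R]
variable {G : Type*} [Group G]

/-- the span of the image -/
def Sp (ρ : G →* R) : Subalgebra ℚ R := Algebra.adjoin ℚ (Set.range ρ)

theorem mem_Sp (ρ : G →* R) (g : G) : ρ g ∈ Sp ρ := Algebra.subset_adjoin ⟨g, rfl⟩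

theorem comm_Sp {ρ : G →* R} {u e : R} (hu : ∀ g, u * ρ g = ρ g * u) (he : e ∈ Sp ρ) :
    u * e = e * u := by
  have : Sp ρ ≤ Subalgebra.centralizer ℚ {u} := Algebra.adjoin_le (by
    rintro _ ⟨g, rfl⟩
    exact (Subalgebra.mem_centralizer_iff ℚ).2 fun a ha => ha ▸ hu g)
  exact (Subalgebra.mem_centralizer_iff ℚ).1 (this he) u rfl

/-- reducible: a nontrivial central idempotent in the span -/
def Red (ρ : G →* R) : Prop := ∃ e ∈ Sp ρ, Idm e ∧ ∀ g, ρ g * e = e * ρ g

open Polynomial in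
theorem trace_two {M : Type*} [AddCommGroup M] [Module ℚ M] [Module.Finite ℚ M]
    (L : Module.End ℚ M) (k : ℕ) (h : L ^ 2 ^ (k + 1) = -1) : LinearMap.trace ℚ M L = 0 := by
  let f : ℚ[X] := X ^ 2 ^ (k + 1) + 1
  have hf : Irreducible f := by
    have := cyclotomic.irreducible_rat (n := 2 ^ (k + 1 + 1)) (by positivity)
    rw [cyclotomic_prime_pow_eq_geom_sum Nat.prime_two] at this
    simpa [Finset.sum_range_succ, add_comm, f] using this
  have := Fact.mk hf
  let φ : AdjoinRoot f →ₐ[ℚ] Module.End ℚ M := Ideal.Quotient.liftₐ _ (aeval L) fun a ha => by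
    obtain ⟨c, rfl⟩ := Ideal.mem_span_singleton'.1 ha
    simp [f, h]
  have hφ : φ (AdjoinRoot.root f) = L := aeval_X L
  let _ : Module (AdjoinRoot f) M := Module.compHom M φ.toRingHom
  let b := Module.Free.chooseBasis (AdjoinRoot f) M
  let σ : AdjoinRoot f →+* AdjoinRoot f := AdjoinRoot.lift (AdjoinRoot.of f)
    (-AdjoinRoot.root f) (by
      have := AdjoinRoot.eval₂_root f
      simp only [f, eval₂_add, eval₂_X_pow, eval₂_one] at this ⊢
      rw [Even.neg_pow (by simp [pow_succ]), this])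
  have hσ : σ (AdjoinRoot.root f) = -AdjoinRoot.root f := AdjoinRoot.lift_root _
  have hσ2 : ∀ x, σ (σ x) = x := fun x => DFunLike.congr_fun
    (AdjoinRoot.ringHom_ext (f := σ.comp σ) (g := RingHom.id _) (RingHom.ext_rat _ _)
      (by simp [hσ])) x
  let ψ : Module.End ℚ M := AddMonoidHom.toRatLinearMap
    (b.repr.symm.toAddMonoidHom.comp ((Finsupp.mapRange.addMonoidHom σ.toAddMonoidHom).comp
      b.repr.toAddMonoidHom))
  have hψ : ∀ m i, b.repr (ψ m) i = σ (b.repr m i) := fun m i => by simp [ψ]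
  have hL : ∀ m, L m = AdjoinRoot.root f • m := fun m => by rw [← hφ]; rfl
  have h1 : ψ * ψ = 1 := LinearMap.ext fun m => b.ext_elem fun i => by simp [hψ, hσ2]
  have h2 : ψ * L = -(L * ψ) := LinearMap.ext fun m => b.ext_elem fun i => by
    simp [hψ, hL, hσ]
  have h3 : LinearMap.trace ℚ M L = -LinearMap.trace ℚ M L := by
    nth_rw 1 [← one_mul L]
    rw [← h1, mul_assoc, LinearMap.trace_mul_comm, h2, neg_mul, mul_assoc, h1, mul_one, map_neg]
  linarith

/-- a normalised trace -/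
structure TR {A : Type*} [Fintype G] [Ring A] [Algebra ℚ A] (σ : G →* A) (T : A →ₗ[ℚ] ℚ) :
    Prop where
  inj : Function.Injective σ
  one : T 1 = 1
  comm : ∀ a b, T (a * b) = T (b * a)
  idem : ∀ e, e * e = e → e = 0 ∨ e = 1 ∨ T e = 1 / 2
  two : ∀ a k, a ^ 2 ^ (k + 1) = -1 → T a = 0
  ineq : ∀ (B : Subgroup G) [Fintype B], (Nat.card G : ℚ)⁻¹ * ∑ g, T (σ g) ^ 2 ≤
    (Nat.card B : ℚ)⁻¹ * ∑ b : B, T (σ b) ^ 2

theorem exists_ne [Fintype G] {ρ : G →* R} (hn : ¬ Red ρ) {e : R} (hA : e ∈ Sp ρ) (he : Idm e) :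
    ∃ g, e * ρ g * (1 - e) ≠ 0 := by
  by_contra h
  push Not at h
  have h1 : ∀ g, e * ρ g * e = e * ρ g := fun g => by
    have := h g; rw [mul_sub, mul_one, sub_eq_zero] at this; exact this.symm
  have hN : (Fintype.card G : ℚ) ≠ 0 := Nat.cast_ne_zero.2 Fintype.card_ne_zero
  let f : R := (Fintype.card G : ℚ)⁻¹ • ∑ g, ρ g⁻¹ * e * ρ g
  have a1 : e * f = e := by
    have : ∀ g, e * (ρ g⁻¹ * e * ρ g) = e := fun g => by
      rw [← mul_assoc, ← mul_assoc, h1, mul_assoc, ← map_mul, inv_mul_cancel, map_one, mul_one]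
    simp only [f, mul_smul_comm, Finset.mul_sum, this, Finset.sum_const, Finset.card_univ]
    rw [← Nat.cast_smul_eq_nsmul ℚ, smul_smul, inv_mul_cancel₀ hN, one_smul]
  have a2 : f * e = f := by
    have : ∀ g, ρ g⁻¹ * e * ρ g * e = ρ g⁻¹ * e * ρ g := fun g => by
      rw [mul_assoc, mul_assoc, ← mul_assoc e, h1, mul_assoc]
    simp only [f, smul_mul_assoc, Finset.sum_mul, this]
  refine hn ⟨f, Subalgebra.smul_mem _ (Subalgebra.sum_mem _ fun g _ =>
    mul_mem (mul_mem (mem_Sp ρ _) hA) (mem_Sp ρ _)) _, ⟨?_, fun h0 => he.ne0 ?_, fun h0 => he.ne1 ?_⟩,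
    fun x => ?_⟩
  · nth_rw 1 [← a2]; rw [mul_assoc, a1, a2]
  · rw [← a1, h0, mul_zero]
  · rwa [h0, one_mul] at a2
  · simp only [f, mul_smul_comm, smul_mul_assoc, Finset.mul_sum, Finset.sum_mul]
    congr 1
    refine Fintype.sum_equiv (Equiv.mulRight x⁻¹) _ _ fun g => ?_
    simp only [Equiv.coe_mulRight, mul_inv_rev, inv_inv, map_mul, mul_assoc]
    rw [← map_mul ρ x⁻¹, inv_mul_cancel, map_one, mul_one]

theorem fin_Sp [Finite G] (ρ : G →* R) : Module.Finite ℚ (Sp ρ) := by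
  have : (Sp ρ).toSubmodule = Submodule.span ℚ (Set.range ρ) := by
    rw [Sp, Algebra.adjoin_eq_span, ← MonoidHom.coe_mrange, Submonoid.closure_eq]
  exact Module.Finite.iff_fg.2 (this ▸ Submodule.fg_span (Set.finite_range ρ))

theorem rank_le [Fintype G] {ρ : G →* R} (hn : ¬ Red ρ) {e : Sp ρ} (he : Idm (e : R)) :
    finrank ℚ (LinearMap.range (LinearMap.mulLeft ℚ (1 - e))) ≤
      finrank ℚ (LinearMap.range (LinearMap.mulLeft ℚ e)) := by
  have := fin_Sp ρ
  obtain ⟨g, hg⟩ := exists_ne hn e.2 he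
  let x : Sp ρ := e * ⟨ρ g, mem_Sp ρ g⟩
  refine LinearMap.finrank_le_finrank_of_injective
    (f := (LinearMap.mulLeft ℚ x).restrict (fun y _ => ⟨⟨ρ g, mem_Sp ρ g⟩ * y, by
      simp [x]⟩)) ((injective_iff_map_eq_zero _).2 ?_)
  rintro ⟨_, y, rfl⟩ h
  have h1 : (e : R) * ρ g * (1 - e) * y = 0 := by
    have := congrArg (fun w => ((w.1 : Sp ρ) : R)) h
    simpa [x, mul_assoc] using this
  exact Subtype.ext (Subtype.ext (by simpa using (Rk2.p1 he.compl h1).resolve_left hg))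

theorem exists_TR [Fintype G] {ρ : G →* R} (hρ : Function.Injective ρ) (hn : ¬ Red ρ) :
    ∃ T : Sp ρ →ₗ[ℚ] ℚ, TR (ρ.codRestrict (Sp ρ) (mem_Sp ρ)) T := by
  have := fin_Sp ρ
  let T0 : Sp ρ →ₗ[ℚ] ℚ := (LinearMap.trace ℚ (Sp ρ)).comp (LinearMap.mul ℚ (Sp ρ))
  have hT : ∀ a, T0 a = LinearMap.trace ℚ (Sp ρ) (LinearMap.mulLeft ℚ a) := fun a => rfl
  have hd : (finrank ℚ (Sp ρ) : ℚ) ≠ 0 := Nat.cast_ne_zero.2 finrank_pos.ne'
  have h1 : T0 1 = finrank ℚ (Sp ρ) := by
    rw [hT, LinearMap.mulLeft_one, LinearMap.trace_id]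
  have hi : ∀ e : Sp ρ, e * e = e →
      T0 e = finrank ℚ (LinearMap.range (LinearMap.mulLeft ℚ e)) := fun e he => by
    refine LinearMap.IsProj.trace ⟨fun x => ⟨x, rfl⟩, ?_⟩
    rintro _ ⟨x, rfl⟩
    simp [← mul_assoc, he]
  refine ⟨(finrank ℚ (Sp ρ) : ℚ)⁻¹ • T0, fun a b h => hρ (congrArg Subtype.val h), ?_, fun a b => ?_,
    fun e he => ?_, fun a k h => ?_, fun B _ => ?_⟩
  · simp [h1, hd]
  · simp only [LinearMap.smul_apply, hT, LinearMap.mulLeft_mul]
    rw [LinearMap.trace_comp_comm']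
  · by_cases h0 : e = 0
    · exact Or.inl h0
    by_cases h1' : e = 1
    · exact Or.inr (Or.inl h1')
    have he' : Idm (e : R) := ⟨congrArg Subtype.val he, fun h => h0 (Subtype.ext h),
      fun h => h1' (Subtype.ext h)⟩
    have a1 := rank_le hn he'
    have a2 := rank_le hn (e := 1 - e) he'.compl
    rw [sub_sub_cancel] at a2
    have a3 := hi (1 - e) (Subtype.ext he'.compl.mul)
    rw [map_sub, h1, le_antisymm a1 a2, ← hi e he] at a3
    refine Or.inr (Or.inr ?_)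
    rw [LinearMap.smul_apply, smul_eq_mul, inv_mul_eq_iff_eq_mul₀ hd]
    linarith
  · rw [LinearMap.smul_apply, hT, trace_two _ k (by
      rw [LinearMap.pow_mulLeft, h]; ext; simp), smul_zero]
  · let π : Representation ℚ G (Sp ρ) :=
      (Algebra.lmul ℚ (Sp ρ)).toMonoidHom.comp (ρ.codRestrict (Sp ρ) (mem_Sp ρ))
    have hc : ∀ g, π.character g = T0 (ρ.codRestrict (Sp ρ) (mem_Sp ρ) g) := fun g => rfl
    letI : Invertible (Nat.card G : ℚ) := invertibleOfNonzero (Nat.cast_ne_zero.2 Nat.card_pos.ne')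
    letI : Invertible (Nat.card B : ℚ) := invertibleOfNonzero (Nat.cast_ne_zero.2 Nat.card_pos.ne')
    have b1 := (π.tprod π).card_inv_mul_sum_char_eq_finrank
    have b2 := Representation.card_inv_mul_sum_char_eq_finrank ((π.tprod π).comp B.subtype)
    have b3 : finrank ℚ (π.tprod π).invariants ≤
        finrank ℚ (Representation.invariants ((π.tprod π).comp B.subtype)) :=
      Submodule.finrank_mono fun v hv b => hv b
    have b4 : ∀ b : B, Representation.character ((π.tprod π).comp B.subtype) b =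
      (π.tprod π).character b := fun b => rfl
    simp only [b4, Representation.char_tensor, Pi.mul_apply, hc] at b1 b2
    simp only [LinearMap.smul_apply, smul_eq_mul, mul_pow, ← Finset.mul_sum, pow_two (T0 _)]
    rw [mul_left_comm, mul_left_comm (Nat.card B : ℚ)⁻¹, b1, b2]
    exact mul_le_mul_of_nonneg_left (by exact_mod_cast b3) (by positivity)

end Cfsg.Agent.GD2
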